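import Cfsg.Agent.Chars.RealOddSolvable.Setup
import Cfsg.Agent.Chars.Induced.Extension

/-!
# Real characters of odd degree of solvable groups

* `realOddCount_eq_normalizer`: a solvable group and its Sylow 2-normalizer have the same number
  of real irreducible characters of odd degree;
* `real_of_hyp`, `exists_nonreal_of_not_hyp`: all characters of odd degree are real exactly when
  the Sylow 2-subgroup is self-normalising with elementary abelian commutator quotient.
-/

set_option autoImplicit false

namespace CfsgLib.Chars.RealOddSolvable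

open Cfsg CfsgLib.Chars CfsgLib.Chars.Induced
open scoped IsMulCommutative commutatorElement

universe u v

variable {G : Type u} [Group G] [Finite G]

theorem map_avg {V S : Subgroup G} [V.Normal] [IsMulCommutative V] (l : V →* ℂˣ)
    (hl : ∀ s ∈ S, ∀ v : V, l (MulAut.conjNormal s v) = l v) (v : V) :
    l (avg V S v) = l v ^ Nat.card S := by
  letI := Fintype.ofFinite S
  show l (∏ t : S, MulAut.conjNormal (t : G) v) = _
  rw [map_prod, Finset.prod_congr rfl (g := fun _ => l v) fun (t : S) _ => hl t t.2 v,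
    Finset.prod_const, Finset.card_univ, Nat.card_eq_fintype_card]

theorem eq_one_of_mem_of_odd (P : Sylow 2 G) {V : Subgroup G} (hV : Odd (Nat.card V)) {x : G}
    (h1 : x ∈ V) (h2 : x ∈ (P : Subgroup G)) : x = 1 := by
  obtain ⟨k, hk⟩ := P.isPGroup'.exists_card_eq
  have h3 : orderOf x ∣ 1 := by
    rw [← (Nat.Coprime.pow_right k (Nat.coprime_two_right.2 hV)).gcd_eq_one, ← hk]
    exact Nat.dvd_gcd (Subgroup.orderOf_dvd_natCard V h1) (Subgroup.orderOf_dvd_natCard _ h2)
  exact orderOf_eq_one_iff.1 (Nat.dvd_one.1 h3)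

/-- `Hyp` passes to quotients. -/
theorem hyp_map {H : Type v} [Group H] (f : G →* H) (hf : Function.Surjective f) (P : Sylow 2 G)
    (hP : Hyp (P : Subgroup G)) : Hyp ((P : Subgroup G).map f) := by
  refine ⟨?_, fun μ y => ?_⟩
  · rw [normalizer_map_sylow f hf P, hP.1]
  · obtain ⟨x, rfl⟩ := MonoidHom.subgroupMap_surjective f (P : Subgroup G) y
    exact hP.2 (μ.comp (f.subgroupMap (P : Subgroup G))) x

theorem hyp_of_map {H : Type v} [Group H] (f : G →* H) (hf : Function.Surjective f)
    (P : Sylow 2 G)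
    (hN : ∀ g ∈ Subgroup.normalizer ((P : Subgroup G) : Set G), f g = 1 → g ∈ (P : Subgroup G))
    (hμ : ∀ (μ : (P : Subgroup G) →* ℂˣ) (x : (P : Subgroup G)), f x = 1 → μ x = 1)
    (hH : Hyp ((P : Subgroup G).map f)) : Hyp (P : Subgroup G) := by
  refine ⟨le_antisymm (fun g hg => ?_) Subgroup.le_normalizer, fun μ x => ?_⟩
  · have h1 : f g ∈ (P : Subgroup G).map f := by
      rw [← hH.1, normalizer_map_sylow f hf P]
      exact Subgroup.mem_map_of_mem f hg
    obtain ⟨p, hp, hpg⟩ := h1
    have h2 := hN (p⁻¹ * g) (mul_mem (inv_mem (Subgroup.le_normalizer hp)) hg)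
      (by rw [map_mul, map_inv, hpg, inv_mul_cancel])
    have h3 := mul_mem hp h2
    rwa [mul_inv_cancel_left] at h3
  · have hk : (f.subgroupMap (P : Subgroup G)).ker ≤ μ.ker := fun y hy =>
      hμ μ y (congrArg Subtype.val (MonoidHom.mem_ker.1 hy))
    have h1 := hH.2 ((f.subgroupMap (P : Subgroup G)).liftOfSurjective
      (MonoidHom.subgroupMap_surjective f _) ⟨μ, hk⟩) (f.subgroupMap (P : Subgroup G) x)
    rwa [MonoidHom.liftOfRightInverse_comp_apply] at h1

theorem count_reduce {H : Type v} [Group H] (f : G →* H) (hf : Function.Surjective f)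
    (P : Sylow 2 G) (hG : ∀ χ : IrrCharacter G, IsRealOdd χ → f.ker ≤ charKer (χ : G → ℂ))
    (hN : ∀ χ : IrrCharacter (Subgroup.normalizer ((P : Subgroup G) : Set G)), IsRealOdd χ →
      f.ker.subgroupOf (Subgroup.normalizer ((P : Subgroup G) : Set G)) ≤ charKer χ.1) :
    realOddCount G = realOddCount H ∧
      realOddCount (Subgroup.normalizer ((P : Subgroup G) : Set G)) =
        realOddCount (Subgroup.normalizer (((P : Subgroup G).map f : Subgroup H) : Set H)) := by
  refine ⟨realOddCount_eq_of_surjective f hf hG, ?_⟩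
  rw [realOddCount_eq_of_surjective (f.subgroupMap _) (MonoidHom.subgroupMap_surjective f _)
    fun χ hχ => ?_]
  · exact realOddCount_congr (MulEquiv.subgroupCongr (normalizer_map_sylow f hf P).symm)
  · exact fun x hx => hN χ hχ (MonoidHom.mem_ker.2 (congrArg Subtype.val (MonoidHom.mem_ker.1 hx)))

section split

variable {W X : Subgroup G} [W.Normal] (h : IsSplit W X) (P : Sylow 2 G)
  (hWP : W ≤ (P : Subgroup G))
include h hWP

theorem IsSplit.proj_mem_sylow {p : G} (hp : p ∈ (P : Subgroup G)) :
    (h.proj p : G) ∈ (P : Subgroup G) := by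
  have h1 := mul_mem (inv_mem (hWP (h.mul_inv_proj_mem p))) hp
  rwa [mul_inv_rev, inv_inv, inv_mul_cancel_right] at h1

theorem IsSplit.mem_map_proj_iff {x : X} :
    x ∈ (P : Subgroup G).map h.proj ↔ (x : G) ∈ (P : Subgroup G) := by
  refine ⟨?_, fun hx => ⟨x, hx, h.proj_coe x⟩⟩
  rintro ⟨p, hp, rfl⟩
  exact h.proj_mem_sylow P hWP hp

variable (b : IrrCharacter W) (hb : (P : Subgroup G) ≤ inertia W (b : W → ℂ))

theorem IsSplit.mem_map_projT_iff {x : (X ⊓ inertia W (b : W → ℂ) : Subgroup G)} :
    x ∈ ((P.subtype hb : Sylow 2 _) : Subgroup _).map (h.projT b) ↔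
      (x : G) ∈ (P : Subgroup G) := by
  refine ⟨?_, fun hx => ⟨⟨(x : G), x.2.2⟩, hx, h.projT_of_mem b x⟩⟩
  rintro ⟨p, hp, rfl⟩
  exact h.proj_mem_sylow P hWP hp

theorem IsSplit.mem_normalizer_projT_iff {x : (X ⊓ inertia W (b : W → ℂ) : Subgroup G)} :
    x ∈ Subgroup.normalizer
        ((((P.subtype hb : Sylow 2 _) : Subgroup _).map (h.projT b) : Subgroup _) : Set _) ↔
      (x : G) ∈ Subgroup.normalizer ((P : Subgroup G) : Set G) := by
  constructor
  · intro hx
    have key : ∀ y : (X ⊓ inertia W (b : W → ℂ) : Subgroup G),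
        y ∈ Subgroup.normalizer
          ((((P.subtype hb : Sylow 2 _) : Subgroup _).map (h.projT b) : Subgroup _) : Set _) →
        ∀ p ∈ (P : Subgroup G), (y : G) * p * (y : G)⁻¹ ∈ (P : Subgroup G) := by
      intro y hy p hp
      have h1 := (Subgroup.mem_normalizer_iff.1 hy (h.projT b ⟨p, hb hp⟩)).1
        ((h.mem_map_projT_iff P hWP b hb).2 (h.proj_mem_sylow P hWP hp))
      have h2 : (y : G) * (h.proj p : G) * (y : G)⁻¹ ∈ (P : Subgroup G) :=
        (h.mem_map_projT_iff P hWP b hb).1 h1
      have h3 : (y : G) * (p * (h.proj p : G)⁻¹) * (y : G)⁻¹ ∈ (P : Subgroup G) :=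
        hWP (‹W.Normal›.conj_mem _ (h.mul_inv_proj_mem p) _)
      have h4 := mul_mem h3 h2
      rwa [show (y : G) * (p * (h.proj p : G)⁻¹) * (y : G)⁻¹ *
        ((y : G) * (h.proj p : G) * (y : G)⁻¹) = (y : G) * p * (y : G)⁻¹ by group] at h4
    rw [Subgroup.mem_normalizer_iff]
    refine fun p => ⟨key x hx p, fun hp => ?_⟩
    have h5 := key x⁻¹ (inv_mem hx) _ hp
    rwa [Subgroup.coe_inv, show (x : G)⁻¹ * ((x : G) * p * (x : G)⁻¹) * (x : G)⁻¹⁻¹ = p by group]
      at h5
  · intro hx
    rw [Subgroup.mem_normalizer_iff]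
    intro y
    rw [h.mem_map_projT_iff P hWP b hb, h.mem_map_projT_iff P hWP b hb]
    exact Subgroup.mem_normalizer_iff.1 hx (y : G)

theorem IsSplit.hyp_projT (hP : Hyp (P : Subgroup G)) :
    Hyp (((P.subtype hb : Sylow 2 _) : Subgroup _).map (h.projT b)) := by
  refine ⟨?_, fun μ y => ?_⟩
  · ext x
    rw [h.mem_normalizer_projT_iff P hWP b hb, hP.1, h.mem_map_projT_iff P hWP b hb]
  · obtain ⟨⟨⟨g, hgT⟩, hg⟩, rfl⟩ := MonoidHom.subgroupMap_surjective (h.projT b) _ y
    let ι : (P : Subgroup G) →* (((P.subtype hb : Sylow 2 (inertia W (b : W → ℂ))) :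
        Subgroup (inertia W (b : W → ℂ)))) :=
      { toFun := fun q => ⟨⟨(q : G), hb q.2⟩, q.2⟩
        map_one' := rfl
        map_mul' := fun _ _ => rfl }
    have h1 := hP.2 ((μ.comp ((h.projT b).subgroupMap _)).comp ι) ⟨g, hg⟩
    exact h1

omit hb b in
theorem IsSplit.hyp_of_proj (hX : Hyp ((P : Subgroup G).map h.proj)) : Hyp (P : Subgroup G) := by
  refine ⟨le_antisymm (fun g hg => ?_) Subgroup.le_normalizer, fun μ x => ?_⟩
  · have hpg : (h.proj g : G) ∈ Subgroup.normalizer ((P : Subgroup G) : Set G) := by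
      have h1 := mul_mem (inv_mem (Subgroup.le_normalizer (hWP (h.mul_inv_proj_mem g)))) hg
      rwa [mul_inv_rev, inv_inv, inv_mul_cancel_right] at h1
    have h2 : h.proj g ∈ Subgroup.normalizer (((P : Subgroup G).map h.proj : Subgroup X) : Set X) := by
      rw [Subgroup.mem_normalizer_iff]
      intro y
      rw [h.mem_map_proj_iff P hWP, h.mem_map_proj_iff P hWP]
      exact Subgroup.mem_normalizer_iff.1 hpg (y : G)
    rw [hX.1, h.mem_map_proj_iff P hWP] at h2
    have h3 := mul_mem (hWP (h.mul_inv_proj_mem g)) h2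
    rwa [inv_mul_cancel_right] at h3
  · let s : (P : Subgroup G) := ⟨(h.proj x : G), h.proj_mem_sylow P hWP x.2⟩
    have hx : x = ⟨(x : G) * (h.proj x : G)⁻¹, hWP (h.mul_inv_proj_mem x)⟩ * s :=
      Subtype.ext (by simp [s])
    let ι : ((P : Subgroup G).map h.proj : Subgroup X) →* (P : Subgroup G) :=
      { toFun := fun y => ⟨((y : X) : G), (h.mem_map_proj_iff P hWP).1 y.2⟩
        map_one' := rfl
        map_mul' := fun _ _ => rfl }
    have h1 : μ s ^ 2 = 1 := hX.2 (μ.comp ι) ⟨h.proj x, Subgroup.mem_map_of_mem _ x.2⟩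
    rw [hx, map_mul, mul_pow, h1, mul_one, ← map_pow]
    refine (congrArg μ (Subtype.ext ?_)).trans (map_one μ)
    rw [SubmonoidClass.coe_pow]
    exact h.exp_two _ (h.mul_inv_proj_mem x)

end split

theorem card_complement_lt {W X : Subgroup G} [W.Normal] (h : IsSplit W X) (hW : W ≠ ⊥)
    {T : Subgroup G} (hT : T ≤ X) : Nat.card T < Nat.card G := by
  refine lt_of_le_of_ne (Subgroup.card_le_card_group T) fun he => hW ?_
  rw [eq_bot_iff]
  intro w hw
  have hX : X = ⊤ := eq_top_iff.2 ((Subgroup.eq_top_of_card_eq T he).ge.trans hT)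
  exact Subgroup.mem_bot.2 (h.disjoint w hw (hX ▸ Subgroup.mem_top w))

theorem count_main (n : ℕ) : ∀ (G : Type u) [Group G] [Finite G], Nat.card G = n →
    Group.IsSolvable G → ∀ P : Sylow 2 G,
      realOddCount G = realOddCount (Subgroup.normalizer ((P : Subgroup G) : Set G)) := by
  induction n using Nat.strong_induction_on with
  | _ n ih =>
    intro G _ _ hcard hsolv P
    classical
    rcases subsingleton_or_nontrivial G with hs | hs
    · rw [show Subgroup.normalizer ((P : Subgroup G) : Set G) = ⊤ from Subsingleton.elim _ _]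
      exact realOddCount_congr Subgroup.topEquiv.symm
    have := Fintype.ofFinite G
    have reduce : ∀ (K : Subgroup G) [K.Normal], K ≠ ⊥ →
        (∀ χ : IrrCharacter G, IsRealOdd χ → K ≤ charKer (χ : G → ℂ)) →
        (∀ χ : IrrCharacter (Subgroup.normalizer ((P : Subgroup G) : Set G)), IsRealOdd χ →
          K.subgroupOf (Subgroup.normalizer ((P : Subgroup G) : Set G)) ≤ charKer χ.1) →
        realOddCount G = realOddCount (Subgroup.normalizer ((P : Subgroup G) : Set G)) := by
      intro K _ hK h1 h2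
      obtain ⟨e1, e2⟩ := count_reduce (QuotientGroup.mk' K) (QuotientGroup.mk'_surjective K) P
        (by rwa [QuotientGroup.ker_mk']) (by rwa [QuotientGroup.ker_mk'])
      rw [e1, e2, ih _ (hcard ▸ CfsgLib.Solvable.card_quotient_lt K hK) (G ⧸ K) rfl inferInstance
        (P.mapSurjective (QuotientGroup.mk'_surjective K)), Sylow.coe_mapSurjective]
    rcases trichotomy (G := G) with ⟨V, hVn, hV, hVc, hVodd⟩ | ⟨U, hUn, hU, u, hu, hu2⟩ |
      ⟨W, X, hWn, hW, hW2, h⟩
    · have := Fintype.ofFinite V
      refine reduce V hV (fun χ hχ => odd_abelian_le_charKer hVodd hχ) fun χ hχ => ?_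
      obtain ⟨A, rfl⟩ : ∃ A, A = V.subgroupOf (Subgroup.normalizer ((P : Subgroup G) : Set G)) :=
        ⟨_, rfl⟩
      have := Fintype.ofFinite (Subgroup.normalizer ((P : Subgroup G) : Set G))
      have := Fintype.ofFinite (V.subgroupOf (Subgroup.normalizer ((P : Subgroup G) : Set G)))
      have : IsMulCommutative (V.subgroupOf (Subgroup.normalizer ((P : Subgroup G) : Set G))) :=
        ⟨⟨fun a b => Subtype.ext (Subtype.ext (congrArg Subtype.val
          (mul_comm' (⟨(a.1 : G), a.2⟩ : V) ⟨(b.1 : G), b.2⟩) :))⟩⟩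
      refine odd_abelian_le_charKer (Odd.of_dvd_nat hVodd ?_) hχ
      exact Subgroup.card_dvd_of_injective
        ((((Subgroup.normalizer ((P : Subgroup G) : Set G)).subtype.comp
          (V.subgroupOf (Subgroup.normalizer ((P : Subgroup G) : Set G))).subtype)).codRestrict V
            fun a => a.2)
        fun a b hab => Subtype.ext (Subtype.ext (congrArg Subtype.val hab :))
    · have := squares_normal U
      have hUP := le_sylow hU P
      refine reduce (Subgroup.closure ((fun x : G => x ^ 2) '' (U : Set G)))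
        (fun hb => hu2 (Subgroup.mem_bot.1 (hb ▸ Subgroup.subset_closure ⟨u, hu, rfl⟩)))
        (fun χ hχ => ?_) fun χ hχ => ?_
      · have := Fintype.ofFinite U
        rw [Subgroup.closure_le]
        rintro _ ⟨x, hx, rfl⟩
        obtain ⟨θ, hθ, hreal⟩ := exists_real_constituent (N := U) hχ
        exact sq_mem_charKer hU hχ.2 hθ hreal hx
      · have := Fintype.ofFinite (Subgroup.normalizer ((P : Subgroup G) : Set G))
        have := Fintype.ofFinite (U.subgroupOf (Subgroup.normalizer ((P : Subgroup G) : Set G)))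
        obtain ⟨θ, hθ, hreal⟩ := exists_real_constituent
          (N := U.subgroupOf (Subgroup.normalizer ((P : Subgroup G) : Set G))) hχ
        have hUA : U ≤ Subgroup.normalizer ((P : Subgroup G) : Set G) :=
          hUP.trans Subgroup.le_normalizer
        have hU' : IsPGroup 2 (U.subgroupOf (Subgroup.normalizer ((P : Subgroup G) : Set G))) :=
          hU.of_equiv (Subgroup.subgroupOfEquivOfLe hUA).symm
        intro x hx
        have hle : Subgroup.closure ((fun x : G => x ^ 2) '' (U : Set G)) ≤
            (charKer χ.1).map (Subgroup.normalizer ((P : Subgroup G) : Set G)).subtype := by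
          rw [Subgroup.closure_le]
          rintro _ ⟨y, hy, rfl⟩
          exact ⟨(⟨y, hUA hy⟩ : Subgroup.normalizer ((P : Subgroup G) : Set G)) ^ 2,
            sq_mem_charKer hU' hχ.2 hθ hreal hy, rfl⟩
        obtain ⟨y, hy, hyx⟩ := hle (Subgroup.mem_subgroupOf.1 hx)
        rwa [show x = y from (Subtype.ext hyx).symm]
    · have := Fintype.ofFinite W
      obtain ⟨A, hA⟩ : ∃ A : Subgroup G, A = Subgroup.normalizer ((P : Subgroup G) : Set G) :=
        ⟨_, rfl⟩
      rw [← hA]
      have hWP := le_sylow hW2 P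
      have hPA : (P : Subgroup G) ≤ A := hA ▸ Subgroup.le_normalizer
      have hWA : W ≤ A := hWP.trans hPA
      have h' : IsSplit (W.subgroupOf A) (X.subgroupOf A) := by
        refine ⟨fun w hw => Subtype.ext ?_, fun g hg hg' => Subtype.ext (h.disjoint _ hg hg'),
          fun g => ?_⟩
        · rw [SubmonoidClass.coe_pow]; exact h.exp_two _ hw
        · obtain ⟨w, hw, x, hx, hg⟩ := h.prod (g : G)
          have hxA : x ∈ A := by
            have h1 := mul_mem (inv_mem (hWA hw)) g.2
            rwa [hg, inv_mul_cancel_left] at h1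
          exact ⟨⟨w, hWA hw⟩, hw, ⟨x, hxA⟩, hx, Subtype.ext hg⟩
      let e : IrrCharacter (W.subgroupOf A) ≃ IrrCharacter W :=
        irrEquiv (Subgroup.subgroupOfEquivOfLe hWA)
      have he : ∀ (m : A) (b : IrrCharacter (W.subgroupOf A)),
          e (conjIrr m b) = conjIrr (m : G) (e b) := fun m b => Subtype.ext (funext fun w => rfl)
      have hmem : ∀ (m : A) (b : IrrCharacter (W.subgroupOf A)),
          m ∈ inertia (W.subgroupOf A) (b : W.subgroupOf A → ℂ) ↔
            (m : G) ∈ inertia W (e b : W → ℂ) := by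
        intro m b
        rw [mem_inertia, mem_inertia, ← conjIrr_coe, ← conjIrr_coe, ← Subtype.ext_iff,
          ← Subtype.ext_iff, ← he, e.injective.eq_iff]
      let P' : Sylow 2 A := P.subtype hPA
      let f : {b : IrrCharacter (W.subgroupOf A) // (P' : Subgroup A) ≤ inertia _ b.1} →
          {b : IrrCharacter W // (P : Subgroup G) ≤ inertia W (b : W → ℂ)} :=
        fun b => ⟨e b.1, fun x hx => (hmem ⟨x, hPA hx⟩ b.1).1 (b.2 hx)⟩
      let Φ : Quotient (fixedSetoid (W.subgroupOf A) (P' : Subgroup A)) →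
          Quotient (fixedSetoid W (P : Subgroup G)) :=
        Quotient.map f fun b b' hbb => by
          obtain ⟨g, hg⟩ := hbb
          exact ⟨(g : G), by rw [← he, hg]⟩
      have hΦ : Function.Bijective Φ := by
        refine ⟨fun q q' hqq => ?_, fun q => ?_⟩
        · induction q using Quotient.inductionOn with
          | _ b =>
            induction q' using Quotient.inductionOn with
            | _ b' =>
              obtain ⟨g, hg⟩ := Quotient.exact hqq
              obtain ⟨m, hm, hmb⟩ := exists_mem_normalizer_conj P (f b).2 (f b').2 hg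
              refine Quotient.sound ⟨⟨m, hA ▸ hm⟩, e.injective ?_⟩
              rw [he]
              exact hmb
        · induction q using Quotient.inductionOn with
          | _ b =>
            refine ⟨Quotient.mk _ ⟨e.symm b.1, fun x hx => (hmem x (e.symm b.1)).2 ?_⟩, ?_⟩
            · rw [e.apply_symm_apply]
              exact b.2 hx
            · refine Quotient.sound ⟨1, ?_⟩
              rw [conjIrr_one]
              exact e.apply_symm_apply b.1
      let Φe := Equiv.ofBijective Φ hΦ
      have hrep : ∀ q, Quotient.mk _ (f (Φe.symm q).out) = q := by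
        intro q
        conv_rhs => rw [← Φe.apply_symm_apply q, ← Quotient.out_eq (Φe.symm q)]
        rfl
      rw [h.realOddCount_eq P _ hrep, h'.realOddCount_eq P' Quotient.out Quotient.out_eq]
      refine Nat.card_congr (Equiv.sigmaCongr Φe.symm fun q => ?_)
      refine (Finite.card_eq.1 ?_).some
      set b := (Φe.symm q).out with hb
      have hIH := ih _ (hcard ▸ card_complement_lt h hW inf_le_left)
        (X ⊓ inertia W ((f b).1 : W → ℂ) : Subgroup G) rfl inferInstance
        (((P.subtype (f b).2 : Sylow 2 _)).mapSurjective (h.projT_surjective (f b).1))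
      rw [Sylow.coe_mapSurjective] at hIH
      refine hIH.trans (realOddCount_congr ?_)
      exact
        { toFun := fun x => ⟨⟨((x.1 : _) : G), hA ▸ (h.mem_normalizer_projT_iff P hWP (f b).1
              (f b).2).1 x.2⟩, x.1.2.1, (hmem _ b.1).2 x.1.2.2⟩
          invFun := fun y => ⟨⟨((y.1 : A) : G), y.2.1, (hmem y.1 b.1).1 y.2.2⟩,
            (h.mem_normalizer_projT_iff P hWP (f b).1 (f b).2).2 (hA ▸ (y.1 : A).2)⟩
          left_inv := fun x => rfl
          right_inv := fun y => rfl
          map_mul' := fun x y => rfl }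

theorem realOddCount_eq_normalizer [Group.IsSolvable G] (P : Sylow 2 G) :
    realOddCount G = realOddCount (Subgroup.normalizer ((P : Subgroup G) : Set G)) :=
  count_main _ G rfl inferInstance P

theorem forward_main (n : ℕ) : ∀ (G : Type u) [Group G] [Finite G], Nat.card G = n →
    Group.IsSolvable G → ∀ P : Sylow 2 G, Hyp (P : Subgroup G) →
      ∀ χ : IrrCharacter G, Odd (charDegree (χ : G → ℂ)) → ∀ g, ((χ : G → ℂ) g).im = 0 := by
  induction n using Nat.strong_induction_on with
  | _ n ih =>
    intro G _ _ hcard hsolv P hP χ hodd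
    classical
    rcases subsingleton_or_nontrivial G with hs | hs
    · intro g
      rw [Subsingleton.elim g 1, ← coe_charDegree χ, Complex.natCast_im]
    have := Fintype.ofFinite G
    have reduce : ∀ (K : Subgroup G) [K.Normal], K ≠ ⊥ → K ≤ charKer (χ : G → ℂ) →
        ∀ g, ((χ : G → ℂ) g).im = 0 := by
      intro K _ hK hker g
      obtain ⟨ψ, hψ⟩ := exists_inflate_eq K χ hker
      rw [← hψ] at hodd ⊢
      refine ih _ (hcard ▸ CfsgLib.Solvable.card_quotient_lt K hK) (G ⧸ K) rfl inferInstance
        (P.mapSurjective (QuotientGroup.mk'_surjective K)) ?_ ψ hodd _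
      rw [Sylow.coe_mapSurjective]
      exact hyp_map _ (QuotientGroup.mk'_surjective K) P hP
    rcases trichotomy (G := G) with ⟨V, hVn, hV, hVc, hVodd⟩ | ⟨U, hUn, hU, u, hu, hu2⟩ |
      ⟨W, X, hWn, hW, hW2, h⟩
    · have := Fintype.ofFinite V
      obtain ⟨θ, hθ, hθP⟩ := IsSplit.exists_fixed (W := V) P hodd
      obtain ⟨l, hl⟩ := exists_linChar_eq θ (map_one_eq_one_of_isMulCommutative θ)
      have hinv : ∀ s ∈ (P : Subgroup G), ∀ v : V, l (MulAut.conjNormal s v) = l v := by
        intro s hs v
        refine Units.ext ?_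
        rw [← linChar_apply, ← linChar_apply, hl]
        exact mem_inertia_iff_forall.1 (hθP hs) v _ (MulAut.conjNormal_apply s v)
      have hl1 : ∀ v : V, l v = 1 := by
        intro v
        have hfix : avg V (P : Subgroup G) v = 1 := by
          refine Subtype.ext (eq_one_of_mem_of_odd P hVodd (avg V (P : Subgroup G) v).2 ?_)
          exact hP.1.le (Subgroup.centralizer_le_normalizer _ (Subgroup.mem_centralizer_iff.2 fun s hs =>
            (conj_eq_iff_commute s _).1 (conj_avg V (P : Subgroup G) hs v)))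
        have h1 := map_avg l hinv v
        rw [hfix, map_one] at h1
        obtain ⟨k, hk⟩ := P.isPGroup'.exists_card_eq
        have h2 : orderOf (l v) ∣ 1 := by
          rw [← (Nat.Coprime.pow_right k (Nat.coprime_two_right.2 hVodd)).gcd_eq_one, ← hk]
          exact Nat.dvd_gcd ((orderOf_map_dvd l v).trans (orderOf_dvd_natCard v))
            (orderOf_dvd_of_pow_eq_one h1.symm)
        exact orderOf_eq_one_iff.1 (Nat.dvd_one.1 h2)
      refine reduce V hV fun v hv => mem_charKer_of_constituents hθ (k := ⟨v, hv⟩) fun x => ?_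
      have h3 : ∀ w : V, (θ : V → ℂ) w = 1 := fun w => by
        rw [← hl, linChar_apply, hl1, Units.val_one]
      simp only [conjIrr_coe, conjFun]
      rw [h3, h3]
    · have := squares_normal U
      have hUP := le_sylow hU P
      have := Fintype.ofFinite U
      have := Fintype.ofFinite (P : Subgroup G)
      refine reduce (Subgroup.closure ((fun x : G => x ^ 2) '' (U : Set G)))
        (fun hb => hu2 (Subgroup.mem_bot.1 (hb ▸ Subgroup.subset_closure ⟨u, hu, rfl⟩))) ?_
      rw [Subgroup.closure_le]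
      rintro _ ⟨x, hx, rfl⟩
      obtain ⟨s, hmem, hs⟩ := exists_eq_sum_mult (isCharacter_restrict (isCharacter_coe χ)
        (P : Subgroup G))
      obtain ⟨η, hη, hη1⟩ : ∃ η : IrrCharacter (P : Subgroup G),
          mult (fun y : (P : Subgroup G) => (χ : G → ℂ) y) η ≠ 0 ∧
            (η : (↥(P : Subgroup G)) → ℂ) 1 = 1 := by
        by_contra! hcon
        have h1 := congrFun hs 1
        rw [Finset.sum_apply, OneMemClass.coe_one] at h1
        have h2 : charDegree (χ : G → ℂ) = ∑ η ∈ s,
            mult (fun y : (P : Subgroup G) => (χ : G → ℂ) y) η * charDegree η.1 := by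
          apply Nat.cast_injective (R := ℂ)
          rw [coe_charDegree, h1, Nat.cast_sum]
          refine Finset.sum_congr rfl fun η _ => ?_
          rw [Pi.smul_apply, smul_eq_mul, Nat.cast_mul, coe_charDegree]
        refine Nat.not_even_iff_odd.2 hodd ?_
        rw [h2]
        refine Finset.even_sum _ fun η hη => Even.mul_left ?_ _
        obtain ⟨k, hk⟩ := P.isPGroup'.exists_card_eq
        obtain ⟨i, -, hi⟩ := (Nat.dvd_prime_pow Nat.prime_two).1 (hk ▸ charDegree_dvd_card η)
        rcases i with _ | i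
        · exact absurd ((charDegree_eq_one_iff η).1 (by simpa using hi))
            (hcon η ((hmem η).1 hη))
        · rw [hi, Nat.even_pow]
          exact ⟨even_two, Nat.succ_ne_zero i⟩
      obtain ⟨μ, rfl⟩ := exists_linChar_eq η hη1
      let θ : IrrCharacter U := linChar (μ.comp (Subgroup.inclusion hUP))
      have hθP : mult (fun y : U => (linChar μ).1 (Subgroup.inclusion hUP y)) θ ≠ 0 := by
        rw [show (fun y : U => (linChar μ).1 (Subgroup.inclusion hUP y)) = (θ : U → ℂ) from rfl,
          mult_irr, if_pos rfl]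
        exact one_ne_zero
      have h1 := mult_mul_mult_le_restrict (Subgroup.inclusion hUP)
        (isCharacter_restrict (isCharacter_coe χ) (P : Subgroup G)) (linChar μ) θ
      have h2 : mult (fun y : U => (χ : G → ℂ) y) θ ≠ 0 :=
        (lt_of_lt_of_le (Nat.mul_pos (Nat.pos_of_ne_zero hη) (Nat.pos_of_ne_zero hθP)) h1).ne'
      refine sq_mem_charKer hU hodd h2 (fun y => ?_) hx
      have h3 := congrArg (fun z : ℂˣ => (z : ℂ)) (hP.2 μ (Subgroup.inclusion hUP y))
      simp only [Units.val_pow_eq_pow_val, Units.val_one] at h3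
      show ((μ (Subgroup.inclusion hUP y) : ℂ)).im = 0
      rcases sq_eq_one_iff.1 h3 with h4 | h4 <;> simp [h4]
    · have := Fintype.ofFinite W
      obtain ⟨b, hb, hbP⟩ := IsSplit.exists_fixed (W := W) P hodd
      obtain ⟨β, rfl⟩ := h.exists_eq_ind b χ hb
      refine (h.ind_real_iff b β).2 ?_
      rw [h.charDegree_ind] at hodd
      refine ih _ (hcard ▸ card_complement_lt h hW inf_le_left) _ rfl inferInstance
        ((P.subtype hbP : Sylow 2 _).mapSurjective (h.projT_surjective b)) ?_ β (Nat.odd_mul.1 hodd).2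
      rw [Sylow.coe_mapSurjective]
      exact h.hyp_projT P (le_sylow hW2 P) b hbP hP

theorem real_of_hyp [Group.IsSolvable G] (P : Sylow 2 G) (hP : Hyp (P : Subgroup G))
    (χ : IrrCharacter G) (hodd : Odd (charDegree (χ : G → ℂ))) (g : G) :
    ((χ : G → ℂ) g).im = 0 :=
  forward_main _ G rfl inferInstance P hP χ hodd g

theorem converse_main (n : ℕ) : ∀ (G : Type u) [Group G] [Finite G], Nat.card G = n →
    Group.IsSolvable G → ∀ P : Sylow 2 G, ¬ Hyp (P : Subgroup G) →
      ∃ χ : IrrCharacter G, Odd (charDegree (χ : G → ℂ)) ∧ ∃ g, ((χ : G → ℂ) g).im ≠ 0 := by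
  induction n using Nat.strong_induction_on with
  | _ n ih =>
    intro G _ _ hcard hsolv P hP
    classical
    rcases subsingleton_or_nontrivial G with hs | hs
    · refine absurd ⟨Subsingleton.elim _ _, fun μ x => ?_⟩ hP
      rw [Subsingleton.elim x 1, map_one, one_pow]
    have := Fintype.ofFinite G
    have reduce : ∀ (K : Subgroup G) [K.Normal], K ≠ ⊥ →
        (∀ g ∈ Subgroup.normalizer ((P : Subgroup G) : Set G), g ∈ K → g ∈ (P : Subgroup G)) →
        (∀ (μ : (P : Subgroup G) →* ℂˣ) (x : (P : Subgroup G)), (x : G) ∈ K → μ x = 1) →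
        ∃ χ : IrrCharacter G, Odd (charDegree (χ : G → ℂ)) ∧ ∃ g, ((χ : G → ℂ) g).im ≠ 0 := by
      intro K _ hK h1 h2
      obtain ⟨ψ, hψ, q, hq⟩ := ih _ (hcard ▸ CfsgLib.Solvable.card_quotient_lt K hK) (G ⧸ K) rfl
        inferInstance (P.mapSurjective (QuotientGroup.mk'_surjective K)) fun hH => hP (by
          rw [Sylow.coe_mapSurjective] at hH
          exact hyp_of_map _ (QuotientGroup.mk'_surjective K) P
            (fun g hg hg1 => h1 g hg ((QuotientGroup.eq_one_iff g).1 hg1))
            (fun μ x hx => h2 μ x ((QuotientGroup.eq_one_iff (x : G)).1 hx)) hH)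
      obtain ⟨g, rfl⟩ := QuotientGroup.mk'_surjective K q
      exact ⟨inflate K ψ, hψ, g, hq⟩
    rcases trichotomy (G := G) with ⟨V, hVn, hV, hVc, hVodd⟩ | ⟨U, hUn, hU, u, hu, hu2⟩ |
      ⟨W, X, hWn, hW, hW2, h⟩
    · have := Fintype.ofFinite V
      by_cases hC : ∀ v ∈ V, (∀ s ∈ (P : Subgroup G), s * v = v * s) → v = 1
      · refine reduce V hV (fun g hg hgV => ?_) fun μ x hx => ?_
        · rw [hC g hgV fun s hs => commutatorElement_eq_one_iff_mul_comm.1
            (eq_one_of_mem_of_odd P hVodd ?_ ?_)]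
          · exact one_mem _
          · rw [commutatorElement_def]
            exact mul_mem (hVn.conj_mem g hgV s) (inv_mem hgV)
          · rw [commutatorElement_def, show s * g * s⁻¹ * g⁻¹ = s * (g * s⁻¹ * g⁻¹) by group]
            exact mul_mem hs ((Subgroup.mem_normalizer_iff.1 hg s⁻¹).1 (inv_mem hs))
        · rw [show x = 1 from Subtype.ext (eq_one_of_mem_of_odd P hVodd hx x.2), map_one]
      · push_neg at hC
        obtain ⟨c, hcV, hcomm, hc⟩ := hC
        have hnc : (⟨c, hcV⟩ : V) ∉ commutator V := by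
          have : commutator V = ⊥ := by
            rw [commutator_def, Subgroup.commutator_eq_bot_iff_le_centralizer]
            intro x _
            exact Subgroup.mem_centralizer_iff.2 fun y _ => mul_comm' y x
          rw [this, Subgroup.mem_bot]
          exact fun h1 => hc (congrArg Subtype.val h1)
        obtain ⟨l0, hl0⟩ := exists_linChar_ne_one hnc
        let l : V →* ℂˣ := l0.comp (avg V (P : Subgroup G))
        obtain ⟨k, hk⟩ := P.isPGroup'.exists_card_eq
        have hlc : l ⟨c, hcV⟩ ≠ 1 := by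
          intro h1
          have h2 : l0 (avg V (P : Subgroup G) ⟨c, hcV⟩) = 1 := h1
          rw [avg_of_fixed V (P : Subgroup G) (v := ⟨c, hcV⟩)
            (fun s hs => (conj_eq_iff_commute s _).2 (hcomm s hs)), map_pow] at h2
          have h3 : orderOf (l0 ⟨c, hcV⟩) ∣ 1 := by
            rw [← (Nat.Coprime.pow_right k (Nat.coprime_two_right.2 hVodd)).gcd_eq_one, ← hk]
            exact Nat.dvd_gcd ((orderOf_map_dvd l0 _).trans (orderOf_dvd_natCard _))
              (orderOf_dvd_of_pow_eq_one h2)
          exact hl0 (orderOf_eq_one_iff.1 (Nat.dvd_one.1 h3))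
        obtain ⟨J, hJ⟩ : ∃ J : Subgroup G, J = (P : Subgroup G) ⊔ V := ⟨_, rfl⟩
        have hPJ : (P : Subgroup G) ≤ J := hJ ▸ le_sup_left
        have hVJ : V ≤ J := hJ ▸ le_sup_right
        let eV := Subgroup.subgroupOfEquivOfLe hVJ
        let lJ : V.subgroupOf J →* ℂˣ := l.comp eV.toMonoidHom
        have hinv : ∀ (g : J) (x : V.subgroupOf J),
            lJ (MulAut.conjNormal g x) = lJ x := by
          intro g x
          have hg : (g : G) ∈ (P : Subgroup G) ⊔ V := hJ ▸ g.2
          obtain ⟨s, hs, w, hw, hsw⟩ := Subgroup.mem_sup_of_normal_right.1 hg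
          have h1 : eV (MulAut.conjNormal g x) = MulAut.conjNormal (g : G) (eV x) :=
            Subtype.ext (by
              rw [MulAut.conjNormal_apply]
              rfl)
          show l (eV (MulAut.conjNormal g x)) = l (eV x)
          rw [h1, ← hsw, map_mul, MulAut.mul_apply]
          have h2 : MulAut.conjNormal w (eV x) = eV x := (conj_eq_iff_commute w _).2
            (congrArg Subtype.val (mul_comm' (⟨w, hw⟩ : V) (eV x)))
          rw [h2]
          show l0 (avg V (P : Subgroup G) _) = l0 (avg V (P : Subgroup G) _)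
          rw [avg_conj V (P : Subgroup G) hs]
        obtain ⟨μ, hμ, -⟩ := exists_linear_extension lJ hinv (by
          have h1 : (V.subgroupOf J).index ∣ Nat.card (P : Subgroup G) := by
            show V.relIndex J ∣ _
            rw [hJ, Subgroup.relIndex_sup_right]
            exact Subgroup.relIndex_dvd_card _ _
          have h2 : orderOf lJ ∣ Nat.card V := by
            refine orderOf_dvd_of_pow_eq_one (MonoidHom.ext fun x => ?_)
            rw [MonoidHom.pow_apply, MonoidHom.one_apply]
            show l (eV x) ^ _ = 1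
            rw [← map_pow, pow_card_eq_one', map_one]
          refine Nat.Coprime.coprime_dvd_left h1 (Nat.Coprime.coprime_dvd_right h2 ?_)
          rw [hk]
          exact Nat.Coprime.pow_left k (Nat.coprime_two_left.2 hVodd))
        refine exists_nonreal_odd P J hPJ hVJ μ ⟨⟨c, hcV⟩, fun h1 => hlc ?_⟩
        have h2 : μ (Subgroup.inclusion hVJ ⟨c, hcV⟩) = l ⟨c, hcV⟩ :=
          hμ (eV.symm ⟨c, hcV⟩) |>.trans (congrArg l (eV.apply_symm_apply _))
        rw [h2] at h1
        have h3 : orderOf (l ⟨c, hcV⟩) ∣ 1 := by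
          rw [← (Nat.coprime_two_right.2 hVodd).gcd_eq_one]
          exact Nat.dvd_gcd ((orderOf_map_dvd l _).trans (orderOf_dvd_natCard _))
            (orderOf_dvd_of_pow_eq_one h1)
        exact orderOf_eq_one_iff.1 (Nat.dvd_one.1 h3)
    · have := squares_normal U
      have hUP := le_sylow hU P
      have := Fintype.ofFinite U
      by_cases hμ : ∀ (μ : (P : Subgroup G) →* ℂˣ) (y : U), μ (Subgroup.inclusion hUP y) ^ 2 = 1
      · refine reduce (Subgroup.closure ((fun x : G => x ^ 2) '' (U : Set G)))
          (fun hb => hu2 (Subgroup.mem_bot.1 (hb ▸ Subgroup.subset_closure ⟨u, hu, rfl⟩)))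
          (fun g _ hg => hUP (squares_le U hg)) fun μ x hx => ?_
        have hle : Subgroup.closure ((fun x : G => x ^ 2) '' (U : Set G)) ≤
            μ.ker.map (P : Subgroup G).subtype := by
          rw [Subgroup.closure_le]
          rintro _ ⟨y, hy, rfl⟩
          refine ⟨(⟨y, hUP hy⟩ : (P : Subgroup G)) ^ 2, ?_, rfl⟩
          rw [SetLike.mem_coe, MonoidHom.mem_ker, map_pow]
          exact hμ μ ⟨y, hy⟩
        obtain ⟨y, hy, hyx⟩ := hle hx
        rw [show x = y from (Subtype.ext hyx).symm]
        exact hy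
      · push_neg at hμ
        obtain ⟨μ, y, hy⟩ := hμ
        exact exists_nonreal_odd P (P : Subgroup G) le_rfl hUP μ ⟨y, hy⟩
    · have hWP := le_sylow hW2 P
      obtain ⟨β, hβ, x, hx⟩ := ih _ (hcard ▸ card_complement_lt h hW le_rfl) X rfl inferInstance
        (P.mapSurjective h.proj_surjective) fun hH =>
          hP (h.hyp_of_proj P hWP (by rwa [Sylow.coe_mapSurjective] at hH))
      refine ⟨⟨_, isIrrCharacter_comp β.2 h.proj h.proj_surjective⟩, ?_, (x : G), ?_⟩
      · rw [charDegree_eq_of_map_one (n := charDegree (β : X → ℂ))]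
        · exact hβ
        · show (β : X → ℂ) (h.proj 1) = _
          rw [map_one, coe_charDegree]
      · show ((β : X → ℂ) (h.proj x)).im ≠ 0
        rwa [h.proj_coe]

theorem exists_nonreal_of_not_hyp [Group.IsSolvable G] (P : Sylow 2 G)
    (hP : ¬ Hyp (P : Subgroup G)) :
    ∃ χ : IrrCharacter G, Odd (charDegree (χ : G → ℂ)) ∧ ∃ g, ((χ : G → ℂ) g).im ≠ 0 :=
  converse_main _ G rfl inferInstance P hP

end CfsgLib.Chars.RealOddSolvable
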