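import Cfsg.Agent.Chars.RealOddSolvable.Split
import Cfsg.Agent.Eq.Def_Local
import Cfsg.Agent.Constrained.Basic
import Cfsg.Agent.Solvable.MinNormal

/-!
# Real characters of odd degree: the three reductions

* `avg`: the product over a subgroup of the conjugates of an element of an abelian normal subgroup;
* `trichotomy`: a nontrivial solvable group has an abelian normal subgroup of odd order, or a
  normal 2-subgroup of exponent greater than two, or is split over a normal subgroup of exponent two.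
-/

set_option autoImplicit false

namespace CfsgLib.Chars.RealOddSolvable

open Cfsg CfsgLib.Chars CfsgLib.Chars.Induced
open scoped IsMulCommutative commutatorElement

universe u

variable {G : Type u} [Group G] [Finite G]

section avg

variable (V S : Subgroup G) [V.Normal] [IsMulCommutative V]

/-- The product of the conjugates by `S`. -/
noncomputable def avg : V →* V :=
  letI := Fintype.ofFinite S
  { toFun := fun v => ∏ s : S, MulAut.conjNormal (s : G) v
    map_one' := by simp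
    map_mul' := fun v w => by rw [← Finset.prod_mul_distrib]; simp }

theorem conj_avg {s : G} (hs : s ∈ S) (v : V) :
    MulAut.conjNormal s (avg V S v) = avg V S v := by
  letI := Fintype.ofFinite S
  show MulAut.conjNormal s (∏ t : S, MulAut.conjNormal (t : G) v) = ∏ t : S, MulAut.conjNormal (t : G) v
  rw [map_prod]
  refine Fintype.prod_equiv (Equiv.mulLeft ⟨s, hs⟩) _ _ fun t => ?_
  rw [← MulAut.mul_apply, ← map_mul]
  rfl

theorem avg_conj {s : G} (hs : s ∈ S) (v : V) :
    avg V S (MulAut.conjNormal s v) = avg V S v := by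
  letI := Fintype.ofFinite S
  show (∏ t : S, MulAut.conjNormal (t : G) (MulAut.conjNormal s v)) =
    ∏ t : S, MulAut.conjNormal (t : G) v
  refine Fintype.prod_equiv (Equiv.mulRight ⟨s, hs⟩) _ _ fun t => ?_
  rw [← MulAut.mul_apply, ← map_mul]
  rfl

theorem avg_of_fixed {v : V} (hv : ∀ s ∈ S, MulAut.conjNormal s v = v) :
    avg V S v = v ^ Nat.card S := by
  letI := Fintype.ofFinite S
  show (∏ t : S, MulAut.conjNormal (t : G) v) = _
  rw [Finset.prod_congr rfl (g := fun _ => v) fun (t : S) _ => hv t t.2, Finset.prod_const, Finset.card_univ,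
    Nat.card_eq_fintype_card]

theorem avg_div_mem (v : V) (W : Subgroup V) (h : ∀ s ∈ S, MulAut.conjNormal s v * v⁻¹ ∈ W) :
    avg V S v * (v ^ Nat.card S)⁻¹ ∈ W := by
  letI := Fintype.ofFinite S
  show (∏ t : S, MulAut.conjNormal (t : G) v) * _ ∈ W
  rw [Nat.card_eq_fintype_card, ← Finset.card_univ, ← Finset.prod_const, ← Finset.prod_inv_distrib,
    ← Finset.prod_mul_distrib]
  exact Subgroup.prod_mem W fun t _ => h t t.2

end avg

theorem conj_eq_iff_commute {V : Subgroup G} [V.Normal] (s : G) (v : V) :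
    MulAut.conjNormal s v = v ↔ s * v = v * s := by
  rw [Subtype.ext_iff, MulAut.conjNormal_apply, mul_inv_eq_iff_eq_mul]

/-- A normal 2-subgroup is contained in every Sylow 2-subgroup. -/
theorem le_sylow {U : Subgroup G} [U.Normal] (hU : IsPGroup 2 U) (P : Sylow 2 G) :
    U ≤ (P : Subgroup G) :=
  hU.le_sylow_of_normal P

/-- The squares of a subgroup generate a subgroup normalised by the normalizer. -/
theorem squares_normal (U : Subgroup G) [U.Normal] :
    (Subgroup.closure ((fun u : G => u ^ 2) '' (U : Set G))).Normal := by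
  refine ⟨fun x hx g => ?_⟩
  induction hx using Subgroup.closure_induction with
  | mem x hx =>
    obtain ⟨u, hu, rfl⟩ := hx
    refine Subgroup.subset_closure ⟨g * u * g⁻¹, ‹U.Normal›.conj_mem u hu g, ?_⟩
    show (g * u * g⁻¹) ^ 2 = g * u ^ 2 * g⁻¹
    rw [conj_pow]
  | one => simp
  | mul x y _ _ h1 h2 =>
    rw [show g * (x * y) * g⁻¹ = (g * x * g⁻¹) * (g * y * g⁻¹) by group]
    exact mul_mem h1 h2
  | inv x _ h1 =>
    rw [show g * x⁻¹ * g⁻¹ = (g * x * g⁻¹)⁻¹ by group]
    exact inv_mem h1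

theorem squares_le (U : Subgroup G) :
    Subgroup.closure ((fun u : G => u ^ 2) '' (U : Set G)) ≤ U := by
  rw [Subgroup.closure_le]
  rintro _ ⟨u, hu, rfl⟩
  exact U.pow_mem hu 2

/-- The three cases. -/
theorem trichotomy [Group.IsSolvable G] [Nontrivial G] :
    (∃ V : Subgroup G, V.Normal ∧ V ≠ ⊥ ∧ IsMulCommutative V ∧ Odd (Nat.card V)) ∨
    (∃ U : Subgroup G, U.Normal ∧ IsPGroup 2 U ∧ ∃ u ∈ U, u ^ 2 ≠ 1) ∨
    (∃ W X : Subgroup G, W.Normal ∧ W ≠ ⊥ ∧ IsPGroup 2 W ∧ IsSplit W X) := by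
  classical
  by_cases hA : ∃ V : Subgroup G, V.Normal ∧ V ≠ ⊥ ∧ IsMulCommutative V ∧ Odd (Nat.card V)
  · exact Or.inl hA
  refine Or.inr ?_
  push_neg at hA
  obtain ⟨V, q, k, hVn, hV, -, hVc, hq, hk, hVcard, -⟩ :=
    CfsgLib.Solvable.exists_minimal_normal_of_solvable (G := G)
  have hq2 : q = 2 := by
    rcases hq.eq_two_or_odd' with h | h
    · exact h
    · exact absurd (hVcard ▸ h.pow) (hA V hVn hV hVc)
  subst hq2
  let U : Subgroup G := pCore 2 G
  have hUn : U.Normal := inferInstance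
  have hU : IsPGroup 2 U := CfsgLib.Constrained.isPGroup_pCore
  have hVU : V ≤ U := CfsgLib.Constrained.le_pCore hVn (IsPGroup.of_card hVcard)
  have hUne : U ≠ ⊥ := fun h => hV (le_bot_iff.1 (h ▸ hVU))
  by_cases hB : ∃ u ∈ U, u ^ 2 ≠ 1
  · exact Or.inl ⟨U, inferInstance, hU, hB⟩
  refine Or.inr ?_
  push_neg at hB
  by_cases hUtop : U = ⊤
  · refine ⟨⊤, ⊥, inferInstance, top_ne_bot, hUtop ▸ hU, fun w _ => hB w (hUtop ▸ Subgroup.mem_top w),
      fun g _ h => Subgroup.mem_bot.1 h, fun g => ⟨g, Subgroup.mem_top g, 1, one_mem _, (mul_one g).symm⟩⟩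
  have : IsMulCommutative U := ⟨⟨fun a b =>
    Subtype.ext (IsSplit.isMulCommutative.mul_comm_of_exponent_two hB a.2 b.2)⟩⟩
  have : Nontrivial (G ⧸ U) := QuotientGroup.nontrivial_iff.2 hUtop
  obtain ⟨Mb, q, k, hMbn, hMb, -, hMbc, hq, hk, hMbcard, -⟩ :=
    CfsgLib.Solvable.exists_minimal_normal_of_solvable (G := G ⧸ U)
  obtain ⟨M, hMdef⟩ : ∃ M : Subgroup G, M = Mb.comap (QuotientGroup.mk' U) := ⟨_, rfl⟩
  have hMn : M.Normal := hMdef ▸ inferInstance
  have hUM : U ≤ M := by
    rw [hMdef]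
    exact (QuotientGroup.ker_mk' U).ge.trans (MonoidHom.ker_le_comap _ _)
  have hcardM : Nat.card M = Nat.card U * q ^ k := by
    have h1 : Mb.index = M.index := by
      rw [hMdef, Subgroup.index_comap_of_surjective _ (QuotientGroup.mk'_surjective U)]
    have h2 := M.card_mul_index
    have h3 := Mb.card_mul_index
    have h4 := U.card_mul_index
    rw [U.index_eq_card, ← h3, hMbcard, h1, ← h2, ← mul_assoc] at h4
    exact (Nat.eq_of_mul_eq_mul_right (Nat.pos_of_ne_zero Subgroup.index_ne_zero_of_finite) h4).symm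
  have hqodd : Odd q := by
    rcases hq.eq_two_or_odd' with h | h
    · subst h
      obtain ⟨j, hj⟩ := hU.exists_card_eq
      have hM2 : IsPGroup 2 M := IsPGroup.of_card (n := j + k) (by rw [hcardM, hj, pow_add])
      have hMU : M = U := le_antisymm (CfsgLib.Constrained.le_pCore hMn hM2) hUM
      exfalso
      rw [hMU] at hcardM
      have h1 : 2 ^ k = 1 := (mul_right_eq_self₀.1 hcardM.symm).resolve_right Nat.card_pos.ne'
      exact absurd ((Nat.pow_eq_one).1 h1) (by omega)
    · exact h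
  have := Fact.mk hq
  obtain ⟨M0⟩ : Nonempty (Sylow q M) := inferInstance
  obtain ⟨S, hSdef⟩ : ∃ S : Subgroup G, S = (M0 : Subgroup M).map M.subtype := ⟨_, rfl⟩
  have hSM : S ≤ M := hSdef ▸ Subgroup.map_subtype_le _
  have hcop : (Nat.card U).Coprime q := by
    obtain ⟨j, hj⟩ := hU.exists_card_eq
    rw [hj]
    exact Nat.Coprime.pow_left j ((Nat.coprime_primes Nat.prime_two hq).2
      fun h => by rw [← h] at hqodd; exact absurd hqodd (by decide))
  have hScard : Nat.card S = q ^ k := by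
    rw [hSdef, Nat.card_congr ((M0 : Subgroup M).equivMapOfInjective M.subtype
      M.subtype_injective).symm.toEquiv, M0.card_eq_multiplicity, hcardM,
      Nat.factorization_mul Nat.card_pos.ne' (pow_ne_zero _ hq.ne_zero), Finsupp.add_apply,
      Nat.factorization_eq_zero_of_not_dvd (hq.coprime_iff_not_dvd.1 hcop.symm),
      hq.factorization_pow, zero_add, Finsupp.single_eq_same]
  have hSodd : Odd (Nat.card S) := hScard ▸ hqodd.pow
  have hSU : ∀ x ∈ S, x ∈ U → x = 1 := fun x h1 h2 => by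
    have h3 : orderOf x ∣ 1 := by
      rw [← (hcop.pow_right k).gcd_eq_one, ← hScard]
      exact Nat.dvd_gcd (Subgroup.orderOf_dvd_natCard U h2) (Subgroup.orderOf_dvd_natCard S h1)
    exact orderOf_eq_one_iff.1 (Nat.dvd_one.1 h3)
  have hMeq : ∀ m ∈ M, ∃ u ∈ U, ∃ s ∈ S, m = u * s := by
    intro m hm
    have hcomp : Subgroup.IsComplement' (U.subgroupOf M) (S.subgroupOf M) := by
      refine Subgroup.isComplement'_of_card_mul_and_disjoint ?_ ?_
      · rw [Nat.card_congr (Subgroup.subgroupOfEquivOfLe hUM).toEquiv,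
          Nat.card_congr (Subgroup.subgroupOfEquivOfLe hSM).toEquiv, hScard, hcardM]
      · rw [Subgroup.disjoint_def]
        exact fun {x} h1 h2 => Subtype.ext (hSU _ h2 h1)
    obtain ⟨y, hy, -⟩ := hcomp.existsUnique ⟨m, hm⟩
    exact ⟨_, y.1.2, _, y.2.2, (congrArg Subtype.val hy).symm⟩
  obtain ⟨W, hWdef⟩ : ∃ W : Subgroup G, W = ⁅U, M⁆ := ⟨_, rfl⟩
  have hWn : W.Normal := hWdef ▸ inferInstance
  have hWU : W ≤ U := hWdef ▸ Subgroup.commutator_le_left U M
  have hconjW : ∀ m ∈ M, ∀ v : U, MulAut.conjNormal m v * v⁻¹ ∈ W.subgroupOf U := by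
    intro m hm v
    rw [Subgroup.mem_subgroupOf, Subgroup.coe_mul, MulAut.conjNormal_apply, Subgroup.coe_inv, hWdef,
      Subgroup.commutator_comm]
    exact Subgroup.commutator_mem_commutator hm v.2
  have havgW : W ≤ (avg U S).ker.map U.subtype := by
    rw [hWdef, Subgroup.commutator_le]
    intro u hu m hm
    obtain ⟨u', hu', s, hs, rfl⟩ := hMeq m hm
    refine ⟨⟨⁅u, u' * s⁆, Subgroup.commutator_le_left U M (Subgroup.commutator_mem_commutator hu hm)⟩,
      ?_, rfl⟩
    rw [SetLike.mem_coe, MonoidHom.mem_ker]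
    have heq : (⟨⁅u, u' * s⁆, Subgroup.commutator_le_left U M
        (Subgroup.commutator_mem_commutator hu hm)⟩ : U) =
        ⟨u, hu⟩ * (MulAut.conjNormal s (⟨u, hu⟩ : U))⁻¹ := by
      apply Subtype.ext
      have hcc : u' * (s * u⁻¹ * s⁻¹) = (s * u⁻¹ * s⁻¹) * u' :=
        congrArg Subtype.val (mul_comm' (⟨u', hu'⟩ : U)
          ⟨s * u⁻¹ * s⁻¹, ‹U.Normal›.conj_mem _ (inv_mem hu) s⟩)
      show ⁅u, u' * s⁆ = u * ((MulAut.conjNormal s (⟨u, hu⟩ : U) : U) : G)⁻¹
      rw [MulAut.conjNormal_apply, commutatorElement_def]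
      calc u * (u' * s) * u⁻¹ * (u' * s)⁻¹ = u * (u' * (s * u⁻¹ * s⁻¹)) * u'⁻¹ := by group
        _ = u * (s * (⟨u, hu⟩ : U) * s⁻¹)⁻¹ := by rw [hcc]; group
    rw [heq, map_mul, map_inv, avg_conj U S hs, mul_inv_cancel]
  have hpow : ∀ v : U, v ^ Nat.card S = v := by
    intro v
    obtain ⟨j, hj⟩ := hSodd
    rw [hj, pow_succ, pow_mul, show v ^ 2 = 1 from
      Subtype.ext (by rw [SubmonoidClass.coe_pow]; exact hB _ v.2), one_pow, one_mul]
  obtain ⟨X, hXdef⟩ : ∃ X : Subgroup G, X = Subgroup.normalizer (S : Set G) := ⟨_, rfl⟩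
  have hsplit : IsSplit W X := by
    refine ⟨fun w hw => hB w (hWU hw), fun w hw hwX => ?_, fun g => ?_⟩
    · obtain ⟨v, hv, rfl⟩ := havgW hw
      have hfix : ∀ s ∈ S, MulAut.conjNormal s v = v := by
        intro s hs
        rw [conj_eq_iff_commute, ← commutatorElement_eq_one_iff_mul_comm]
        refine hSU _ ?_ ?_
        · rw [hXdef] at hwX
          have h1 := (Subgroup.mem_normalizer_iff.1 hwX s⁻¹).1 (inv_mem hs)
          rw [commutatorElement_def, show s * (v : G) * s⁻¹ * (v : G)⁻¹ =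
            s * ((v : G) * s⁻¹ * (v : G)⁻¹) by group]
          exact mul_mem hs h1
        · rw [commutatorElement_def]
          exact mul_mem (‹U.Normal›.conj_mem _ v.2 s) (inv_mem v.2)
      have h1 := avg_of_fixed U S hfix
      rw [MonoidHom.mem_ker.1 hv, hpow] at h1
      rw [← h1]
      rfl
    · have hfr : X ⊔ M = ⊤ := by rw [hXdef, hSdef]; exact Sylow.normalizer_sup_eq_top M0
      have hg : g ∈ X ⊔ M := hfr ▸ Subgroup.mem_top g
      obtain ⟨x, hx, m, hm, rfl⟩ := Subgroup.mem_sup_of_normal_right.1 hg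
      obtain ⟨u, hu, s, hs, rfl⟩ := hMeq m hm
      let v : U := ⟨x * u * x⁻¹, ‹U.Normal›.conj_mem u hu x⟩
      have hvW : avg U S v * v⁻¹ ∈ W.subgroupOf U := by
        have h1 := avg_div_mem U S v (W.subgroupOf U) fun t ht => hconjW t (hSM ht) v
        rwa [hpow] at h1
      have havgX : ((avg U S v : U) : G) ∈ X := by
        rw [hXdef]
        refine Subgroup.centralizer_le_normalizer _ (Subgroup.mem_centralizer_iff.2 fun t ht => ?_)
        exact (conj_eq_iff_commute t _).1 (conj_avg U S ht v)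
      refine ⟨(v : G) * ((avg U S v : U) : G)⁻¹, ?_, ((avg U S v : U) : G) * (x * s),
        mul_mem havgX (mul_mem hx (hXdef ▸ Subgroup.le_normalizer hs)), ?_⟩
      · have h1 : (avg U S v * v⁻¹)⁻¹ ∈ W.subgroupOf U := inv_mem hvW
        rw [mul_inv_rev, inv_inv, Subgroup.mem_subgroupOf, Subgroup.coe_mul, Subgroup.coe_inv] at h1
        exact h1
      · show x * (u * s) = (x * u * x⁻¹) * ((avg U S v : U) : G)⁻¹ *
          (((avg U S v : U) : G) * (x * s))
        group
  refine ⟨W, X, hWn, fun hbot => ?_, hU.to_le hWU, hsplit⟩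
  have hXtop : X = ⊤ := eq_top_iff.2 fun g _ => by
    obtain ⟨w, hw, x, hx, rfl⟩ := hsplit.prod g
    rw [hbot, Subgroup.mem_bot] at hw
    rwa [hw, one_mul]
  rw [hXdef] at hXtop
  have hSn : S.Normal := Subgroup.normalizer_eq_top_iff.1 hXtop
  have hSne : S ≠ ⊥ := (Subgroup.one_lt_card_iff_ne_bot S).1
    (hScard ▸ one_lt_pow₀ hq.one_lt hk.ne')
  have hSsolv : Group.IsSolvable S := inferInstance
  obtain ⟨V', p, j, hV'S, hV'n, hV', -, hV'c, -, -, hV'card, -⟩ :=
    CfsgLib.Solvable.exists_minimal_normal_elementary_le S hSsolv hSne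
  exact hA V' hV'n hV' hV'c (Odd.of_dvd_nat hSodd (Subgroup.card_dvd_of_le hV'S))

end CfsgLib.Chars.RealOddSolvable
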