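import Cfsg.Agent.Chars.RealOddSolvable.Basic
import Cfsg.Agent.S4713

/-!
# Real characters of odd degree of a split extension

`G = W X` with `W` normal of exponent two and `W ∩ X = 1`: the irreducible characters of odd
degree are induced from `l̂ · β`, with `l` a Sylow-invariant linear character of `W` and `β` a
character of odd degree of the stabiliser of `l` in `X`.
-/

set_option autoImplicit false

namespace CfsgLib.Chars.RealOddSolvable

open Cfsg CfsgLib.Chars CfsgLib.Chars.Induced
open scoped ComplexConjugate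

universe u

variable {G : Type u} [Group G]

/-- A normal subgroup of exponent two with a complement. -/
structure IsSplit (W X : Subgroup G) : Prop where
  exp_two : ∀ w ∈ W, w ^ 2 = 1
  disjoint : ∀ g ∈ W, g ∈ X → g = 1
  prod : ∀ g : G, ∃ w ∈ W, ∃ x ∈ X, g = w * x

namespace IsSplit

variable {W X : Subgroup G} [W.Normal] (h : IsSplit W X)
include h

omit [W.Normal] in
theorem isMulCommutative : IsMulCommutative W :=
  ⟨⟨fun a b => Subtype.ext (mul_comm_of_exponent_two h.exp_two a.2 b.2)⟩⟩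
where
  mul_comm_of_exponent_two {K : Subgroup G} (hK : ∀ w ∈ K, w ^ 2 = 1) {a b : G} (ha : a ∈ K)
      (hb : b ∈ K) : a * b = b * a := by
    have e1 := hK a ha
    have e2 := hK b hb
    have e3 := hK _ (mul_mem ha hb)
    rw [pow_two] at e1 e2 e3
    calc a * b = a * (a * b * (a * b)) * b := by rw [e3, mul_one]
      _ = (a * a) * (b * a) * (b * b) := by group
      _ = b * a := by rw [e1, e2, one_mul, mul_one]

omit [W.Normal] in
theorem existsUnique (g : G) : ∃! x : X, g * (x : G)⁻¹ ∈ W := by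
  obtain ⟨w, hw, x, hx, rfl⟩ := h.prod g
  refine ⟨⟨x, hx⟩, by simpa using hw, fun y hy => Subtype.ext ?_⟩
  have h1 : (x : G) * (y : G)⁻¹ ∈ W := by
    have h2 := W.mul_mem (W.inv_mem hw) hy
    rwa [mul_assoc, inv_mul_cancel_left] at h2
  exact (mul_inv_eq_one.1 (h.disjoint _ h1 (X.mul_mem hx (X.inv_mem y.2)))).symm

/-- The projection onto the complement, as a function. -/
noncomputable def projFun (g : G) : X := Classical.choose (h.existsUnique g).exists

omit [W.Normal] in
theorem mul_inv_projFun_mem (g : G) : g * (h.projFun g : G)⁻¹ ∈ W :=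
  Classical.choose_spec (h.existsUnique g).exists

/-- The projection onto the complement. -/
noncomputable def proj : G →* X where
  toFun := h.projFun
  map_one' := (h.existsUnique 1).unique (h.mul_inv_projFun_mem 1) (by simp)
  map_mul' g₁ g₂ := by
    refine (h.existsUnique (g₁ * g₂)).unique (h.mul_inv_projFun_mem _) ?_
    have h1 := h.mul_inv_projFun_mem g₁
    have h2 := h.mul_inv_projFun_mem g₂
    rw [Subgroup.coe_mul]
    set x := (h.projFun g₁ : G)
    set y := (h.projFun g₂ : G)
    rw [show g₁ * g₂ * (x * y)⁻¹ = (g₁ * x⁻¹) * (x * (g₂ * y⁻¹) * x⁻¹) by group]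
    exact W.mul_mem h1 (‹W.Normal›.conj_mem _ h2 _)

theorem mul_inv_proj_mem (g : G) : g * (h.proj g : G)⁻¹ ∈ W := h.mul_inv_projFun_mem g

theorem proj_eq {g : G} {x : X} (hx : g * (x : G)⁻¹ ∈ W) : h.proj g = x :=
  (h.existsUnique g).unique (h.mul_inv_projFun_mem g) hx

theorem proj_coe (x : X) : h.proj (x : G) = x := h.proj_eq (by simp)

theorem proj_mem {w : G} (hw : w ∈ W) : h.proj w = 1 := h.proj_eq (by simpa using hw)

theorem proj_surjective : Function.Surjective h.proj := fun x => ⟨x, h.proj_coe x⟩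

variable (a : IrrCharacter W)

omit h in
theorem le_inertia_irr : W ≤ inertia W (a : W → ℂ) := le_inertia (isClassFunction_coe a)

theorem proj_mem_inertia {g : G} (hg : g ∈ inertia W (a : W → ℂ)) :
    (h.proj g : G) ∈ inertia W (a : W → ℂ) := by
  have h1 := (inertia W (a : W → ℂ)).mul_mem
    ((inertia W (a : W → ℂ)).inv_mem (le_inertia_irr a (h.mul_inv_proj_mem g))) hg
  rwa [mul_inv_rev, inv_inv, inv_mul_cancel_right] at h1

/-- The projection of the inertia group onto the stabiliser in the complement. -/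
noncomputable def projT : inertia W (a : W → ℂ) →* (X ⊓ inertia W (a : W → ℂ) : Subgroup G) where
  toFun t := ⟨(h.proj t : G), (h.proj t).2, h.proj_mem_inertia a t.2⟩
  map_one' := Subtype.ext (by simp)
  map_mul' t₁ t₂ := Subtype.ext (by simp)

theorem projT_coe (t : inertia W (a : W → ℂ)) : ((h.projT a t : _) : G) = (h.proj t : G) := rfl

theorem projT_of_mem (x : (X ⊓ inertia W (a : W → ℂ) : Subgroup G)) :
    h.projT a ⟨(x : G), x.2.2⟩ = x :=
  Subtype.ext ((congrArg Subtype.val (h.proj_coe ⟨(x : G), x.2.1⟩) : _))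

theorem projT_surjective : Function.Surjective (h.projT a) :=
  fun x => ⟨⟨(x : G), x.2.2⟩, h.projT_of_mem a x⟩

variable [Finite G]

theorem exists_hom : ∃ l : W →* ℂˣ, (a : W → ℂ) = fun w => (l w : ℂ) := by
  have := h.isMulCommutative
  obtain ⟨l, hl⟩ := exists_linChar_eq a (map_one_eq_one_of_isMulCommutative a)
  exact ⟨l, by rw [← hl]; rfl⟩

/-- The linear character of `W`, as a homomorphism. -/
noncomputable def hom : W →* ℂˣ := Classical.choose (h.exists_hom a)

theorem hom_apply (w : W) : (h.hom a w : ℂ) = (a : W → ℂ) w :=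
  (congrFun (Classical.choose_spec (h.exists_hom a)) w).symm

/-- The extension to the inertia group, trivial on the complement. -/
noncomputable def ext : inertia W (a : W → ℂ) →* ℂˣ where
  toFun t := h.hom a ⟨(t : G) * (h.proj t : G)⁻¹, h.mul_inv_proj_mem t⟩
  map_one' := by
    rw [show (⟨((1 : inertia W (a : W → ℂ)) : G) * (h.proj (1 : inertia W (a : W → ℂ)) : G)⁻¹,
      h.mul_inv_proj_mem _⟩ : W) = 1 from Subtype.ext (by simp), map_one]
  map_mul' t₁ t₂ := by
    set x : G := (h.proj t₁ : G)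
    set v : W := ⟨(t₂ : G) * (h.proj t₂ : G)⁻¹, h.mul_inv_proj_mem t₂⟩ with hv
    have h1 : h.hom a ⟨x * v * x⁻¹, ‹W.Normal›.conj_mem _ v.2 x⟩ = h.hom a v := by
      refine Units.ext ?_
      rw [hom_apply, hom_apply]
      exact mem_inertia_iff_forall.1 (h.proj_mem_inertia a t₁.2) v _ rfl
    rw [← h1, ← map_mul]
    refine congrArg _ (Subtype.ext ?_)
    show (t₁ : G) * t₂ * (h.proj ((t₁ : G) * t₂) : G)⁻¹ = (t₁ : G) * x⁻¹ * (x * v * x⁻¹)
    rw [map_mul, Subgroup.coe_mul, hv]
    show (t₁ : G) * t₂ * (x * (h.proj (t₂ : G) : G))⁻¹ = _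
    group

theorem ext_of_mem {w : inertia W (a : W → ℂ)} (hw : (w : G) ∈ W) :
    (h.ext a w : ℂ) = (a : W → ℂ) ⟨w, hw⟩ := by
  rw [← hom_apply h a]
  show (h.hom a _ : ℂ) = _
  rw [show (⟨(w : G) * (h.proj w : G)⁻¹, h.mul_inv_proj_mem w⟩ : W) = ⟨w, hw⟩ from
    Subtype.ext (by simp [h.proj_mem hw])]

theorem ext_of_mem_right {x : inertia W (a : W → ℂ)} (hx : (x : G) ∈ X) : h.ext a x = 1 := by
  show h.hom a _ = 1
  rw [show (⟨(x : G) * (h.proj x : G)⁻¹, h.mul_inv_proj_mem x⟩ : W) = 1 from
    Subtype.ext (by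
      show (x : G) * (h.proj x : G)⁻¹ = 1
      rw [show h.proj (x : G) = ⟨x, hx⟩ from h.proj_coe ⟨x, hx⟩]
      simp), map_one]

theorem ext_sq (t : inertia W (a : W → ℂ)) : h.ext a t ^ 2 = 1 := by
  show h.hom a _ ^ 2 = 1
  rw [← map_pow]
  refine (congrArg (h.hom a) (Subtype.ext ?_)).trans (map_one _)
  rw [SubmonoidClass.coe_pow]
  exact h.exp_two _ (h.mul_inv_proj_mem t)

theorem ext_im (t : inertia W (a : W → ℂ)) : ((h.ext a t : ℂ)).im = 0 := by
  have h1 := congrArg (fun z : ℂˣ => (z : ℂ)) (h.ext_sq a t)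
  simp only [Units.val_pow_eq_pow_val, Units.val_one] at h1
  rcases sq_eq_one_iff.1 h1 with h2 | h2 <;> simp [h2]

variable (β : IrrCharacter (X ⊓ inertia W (a : W → ℂ) : Subgroup G))

/-- The character of the inertia group. -/
noncomputable def psi : IrrCharacter (inertia W (a : W → ℂ)) :=
  ⟨fun t => (h.ext a t : ℂ) * (β).1 (h.projT a t),
    isIrrCharacter_linear_mul (isIrrCharacter_comp β.2 (h.projT a) (h.projT_surjective a)) _⟩

theorem psi_apply (t : inertia W (a : W → ℂ)) :
    (h.psi a β).1 t = (h.ext a t : ℂ) * (β).1 (h.projT a t) := rfl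

theorem psi_of_mem_right (x : (X ⊓ inertia W (a : W → ℂ) : Subgroup G)) :
    (h.psi a β).1 ⟨(x : G), x.2.2⟩ = (β).1 x := by
  rw [psi_apply, ext_of_mem_right h a (x := ⟨(x : G), x.2.2⟩) x.2.1, Units.val_one, one_mul,
    projT_of_mem]

theorem psi_injective {β β' : IrrCharacter (X ⊓ inertia W (a : W → ℂ) : Subgroup G)}
    (he : h.psi a β = h.psi a β') : β = β' :=
  Subtype.ext (funext fun x => by
    rw [← psi_of_mem_right h a β x, ← psi_of_mem_right h a β' x, he])

theorem psi_real_iff :
    (∀ t, ((h.psi a β).1 t).im = 0) ↔ ∀ x, ((β).1 x).im = 0 := by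
  refine ⟨fun hr x => ?_, fun hr t => ?_⟩
  · rw [← psi_of_mem_right h a β x]
    exact hr _
  · rw [psi_apply, Complex.mul_im, hr, ext_im, mul_zero, zero_mul, add_zero]

theorem psi_one : (h.psi a β).1 1 = (β).1 1 := by
  rw [psi_apply, map_one, Units.val_one, one_mul, map_one]

theorem mult_psi [Fintype W] :
    mult (fun w : W => (h.psi a β).1 (Subgroup.inclusion (le_inertia_irr a) w)) a ≠ 0 := by
  classical
  have := Fintype.ofFinite G
  have hfun : (fun w : W => (h.psi a β).1 (Subgroup.inclusion (le_inertia_irr a) w)) =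
      (β).1 1 • (a : W → ℂ) := by
    funext w
    rw [psi_apply, ext_of_mem h a (w := Subgroup.inclusion (le_inertia_irr a) w) w.2,
      Pi.smul_apply, smul_eq_mul, mul_comm]
    congr 1
    refine congrArg β.1 (Subtype.ext ?_)
    rw [projT_coe]
    show ((h.proj (w : G)) : G) = 1
    rw [h.proj_mem w.2, OneMemClass.coe_one]
  intro h0
  have h1 := classInner_eq_mult
    (isCharacter_comp (isCharacter_coe (h.psi a β)) (Subgroup.inclusion (le_inertia_irr a))) a
  rw [h0, hfun, Induced.classInner_smul_left, classInner_irr_self, mul_one, Nat.cast_zero] at h1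
  exact map_one_ne_zero β h1

variable [Fintype G] [Fintype W]

/-- The induced character. -/
noncomputable def ind : IrrCharacter G :=
  haveI := Fintype.ofFinite (inertia W (a : W → ℂ))
  ⟨indFun (inertia W (a : W → ℂ)) (h.psi a β).1,
    isIrrCharacter_indFun_inertia rfl (le_inertia_irr a) (h.psi a β) (h.mult_psi a β)⟩

theorem ind_coe : (h.ind a β : G → ℂ) = indFun (inertia W (a : W → ℂ)) (h.psi a β).1 := rfl

theorem mult_ind : mult (fun w : W => (h.ind a β : G → ℂ) w) a ≠ 0 := by
  classical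
  have := Fintype.ofFinite (inertia W (a : W → ℂ))
  have h1 : mult (indFun (inertia W (a : W → ℂ)) (h.psi a β).1) (h.ind a β) ≠ 0 := by
    rw [← ind_coe, mult_irr, if_pos rfl]
    exact one_ne_zero
  rw [(indFun_eq_of_mult_ne_zero rfl (le_inertia_irr a) (h.psi a β) (h.mult_psi a β) _ h1).2]
  exact h.mult_psi a β

theorem charDegree_ind : charDegree (h.ind a β : G → ℂ) =
    (inertia W (a : W → ℂ)).index * charDegree (β).1 := by
  refine charDegree_eq_of_map_one ?_
  rw [ind_coe, indFun_one_apply, psi_one, Nat.cast_mul, coe_charDegree]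

theorem ind_real_iff :
    (∀ g, ((h.ind a β : G → ℂ) g).im = 0) ↔ ∀ x, ((β).1 x).im = 0 := by
  classical
  have := Fintype.ofFinite (inertia W (a : W → ℂ))
  rw [← psi_real_iff h a β, ← conjChar_eq_self_iff, ← conjChar_eq_self_iff]
  have hc : (conjChar (h.ind a β) : G → ℂ) =
      indFun (inertia W (a : W → ℂ)) (conjChar (h.psi a β)).1 := by
    funext g
    rw [conjChar_apply, ind_coe]
    simp only [indFun, map_mul, map_inv₀, map_natCast, map_sum]
    refine congrArg _ (Finset.sum_congr rfl fun x _ => ?_)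
    by_cases hx : x⁻¹ * g * x ∈ inertia W (a : W → ℂ)
    · rw [extendByZero_mem _ hx, extendByZero_mem _ hx, conjChar_apply]
    · rw [extendByZero_notMem _ hx, extendByZero_notMem _ hx, map_zero]
  refine ⟨fun hr => ?_, fun hr => Subtype.ext ?_⟩
  · refine indFun_inertia_injective rfl (le_inertia_irr a) _ _ ?_ (h.mult_psi a β)
      (hc.symm.trans ((congrArg Subtype.val hr).trans (ind_coe h a β)))
    intro h0
    have hres := isCharacter_comp (isCharacter_coe (conjChar (h.psi a β)))
      (Subgroup.inclusion (le_inertia_irr a))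
    have h1 : classInner (fun w : W => (conjChar (h.psi a β)).1
        (Subgroup.inclusion (le_inertia_irr a) w)) (a : W → ℂ) =
        conj (classInner (fun w : W => (h.psi a β).1
          (Subgroup.inclusion (le_inertia_irr a) w)) (a : W → ℂ)) := by
      simp only [classInner, map_mul, map_inv₀, map_natCast, map_sum, conjChar_apply,
        Complex.conj_conj]
      refine congrArg _ (Finset.sum_congr rfl fun w _ => ?_)
      have ha : ((a : W → ℂ) w).im = 0 := by
        have h2 := ext_im h a (Subgroup.inclusion (le_inertia_irr a) w)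
        rwa [ext_of_mem h a (w := Subgroup.inclusion (le_inertia_irr a) w) w.2] at h2
      rw [Complex.conj_eq_iff_im.2 ha]
    rw [classInner_eq_mult hres, h0, Nat.cast_zero, eq_comm, map_eq_zero] at h1
    exact (mult_ne_zero_iff (isCharacter_comp (isCharacter_coe (h.psi a β))
      (Subgroup.inclusion (le_inertia_irr a))) a).1 (h.mult_psi a β) h1
  · rw [hc, hr, ind_coe]

theorem ind_injective {β β' : IrrCharacter (X ⊓ inertia W (a : W → ℂ) : Subgroup G)}
    (he : h.ind a β = h.ind a β') : β = β' := by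
  have := Fintype.ofFinite (inertia W (a : W → ℂ))
  exact h.psi_injective a (indFun_inertia_injective rfl (le_inertia_irr a) _ _ (h.mult_psi a β)
    (h.mult_psi a β') (congrArg Subtype.val he))

theorem exists_eq_ind (χ : IrrCharacter G) (hχ : mult (fun w : W => (χ : G → ℂ) w) a ≠ 0) :
    ∃ β, χ = h.ind a β := by
  classical
  have := Fintype.ofFinite (inertia W (a : W → ℂ))
  obtain ⟨ψ, hψ, hψχ⟩ := exists_indFun_eq rfl (le_inertia_irr a) χ hχ
  let ψ' : IrrCharacter (inertia W (a : W → ℂ)) :=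
    ⟨fun t => (h.ext a t : ℂ) * (ψ).1 t, isIrrCharacter_linear_mul ψ.2 _⟩
  have hres := restrict_eq_smul_of_le_inertia (le_inertia_irr a) le_rfl ψ hψ
  have hker : (h.projT a).ker ≤ charKer (ψ').1 := by
    intro t ht
    have htW : (t : G) ∈ W := by
      have h1 := congrArg (fun y : (X ⊓ inertia W (a : W → ℂ) : Subgroup G) => (y : G))
        (MonoidHom.mem_ker.1 ht)
      simp only [projT_coe, OneMemClass.coe_one] at h1
      simpa [h1] using h.mul_inv_proj_mem (t : G)
    rw [mem_charKer_iff (isCharacter_coe ψ')]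
    show (h.ext a t : ℂ) * _ = (h.ext a 1 : ℂ) * _
    have h1 := congrFun hres ⟨t, htW⟩
    rw [show Subgroup.inclusion (le_inertia_irr a) (⟨t, htW⟩ : W) = t from Subtype.ext rfl] at h1
    have h2 := congrFun hres 1
    rw [map_one] at h2
    rw [h1, h2, map_one, Units.val_one, one_mul, Pi.smul_apply, Pi.smul_apply, smul_eq_mul,
      smul_eq_mul, ← ext_of_mem h a htW, mul_left_comm, ← pow_two, ← Units.val_pow_eq_pow_val,
      ext_sq, Units.val_one]
    rw [← hom_apply h a 1, map_one, Units.val_one]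
  obtain ⟨β, hβ⟩ := exists_comp_eq (h.projT a) (h.projT_surjective a) ψ' hker
  refine ⟨β, Subtype.ext ?_⟩
  rw [ind_coe, ← hψχ]
  congr 1
  funext t
  rw [psi_apply, ← hβ]
  show _ = (h.ext a t : ℂ) * ((h.ext a t : ℂ) * _)
  rw [← mul_assoc, ← pow_two, ← Units.val_pow_eq_pow_val, ext_sq, Units.val_one, one_mul]

omit h in
/-- A character of odd degree lies over a character fixed by a given Sylow subgroup. -/
theorem exists_fixed (P : Sylow 2 G) {χ : IrrCharacter G} (hodd : Odd (charDegree (χ : G → ℂ))) :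
    ∃ b : IrrCharacter W, mult (fun w : W => (χ : G → ℂ) w) b ≠ 0 ∧
      (P : Subgroup G) ≤ inertia W (b : W → ℂ) := by
  obtain ⟨θ, hθ⟩ := exists_mult_restrict_ne_zero (N := W) χ
  obtain ⟨w, hw⟩ := Cfsg.Agent.S4713.exists_conj_mem (inertia W (θ : W → ℂ))
    (odd_index_inertia hodd hθ).not_two_dvd_nat P
  refine ⟨conjIrr w⁻¹ θ, by rwa [mult_restrict_conjIrr (isClassFunction_coe χ)], fun x hx => ?_⟩
  rw [mem_inertia, conjIrr_coe, ← conjFun_mul]
  calc conjFun W (x * w⁻¹) (θ : W → ℂ)
      = conjFun W (w⁻¹ * (w * x * w⁻¹)) (θ : W → ℂ) := by group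
    _ = conjFun W w⁻¹ (θ : W → ℂ) := by rw [conjFun_mul, mem_inertia.1 (hw x hx)]

end IsSplit

section count

variable [Finite G] {W X : Subgroup G} [W.Normal]

/-- The invariant linear characters, up to conjugacy. -/
def fixedSetoid (W : Subgroup G) [W.Normal] (P : Subgroup G) :
    Setoid {b : IrrCharacter W // P ≤ inertia W (b : W → ℂ)} where
  r a b := ∃ g : G, conjIrr g a.1 = b.1
  iseqv := ⟨fun _ => ⟨1, conjIrr_one _⟩,
    fun {a b} ⟨g, hg⟩ => ⟨g⁻¹, by rw [← hg, ← conjIrr_mul, inv_mul_cancel, conjIrr_one]⟩,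
    fun {a b c} ⟨g, hg⟩ ⟨k, hk⟩ => ⟨k * g, by rw [conjIrr_mul, hg, hk]⟩⟩

variable (h : IsSplit W X) (P : Sylow 2 G)
include h

/-- The count of real characters of odd degree of a split extension. -/
theorem IsSplit.realOddCount_eq
    (rep : Quotient (fixedSetoid W (P : Subgroup G)) →
      {b : IrrCharacter W // (P : Subgroup G) ≤ inertia W (b : W → ℂ)})
    (hrep : ∀ q, Quotient.mk _ (rep q) = q) :
    realOddCount G = Nat.card (Σ q : Quotient (fixedSetoid W (P : Subgroup G)),
      {β : IrrCharacter (X ⊓ inertia W ((rep q).1 : W → ℂ) : Subgroup G) //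
        IsRealOdd β}) := by
  classical
  have := Fintype.ofFinite G
  have := Fintype.ofFinite W
  have hodd : ∀ b : {b : IrrCharacter W // (P : Subgroup G) ≤ inertia W (b : W → ℂ)},
      Odd (inertia W (b.1 : W → ℂ)).index := fun b => by
    rw [Nat.odd_iff, ← Nat.two_dvd_ne_zero]
    exact fun hd => P.not_dvd_index (hd.trans (Subgroup.index_dvd_of_le b.2))
  let F : (Σ q : Quotient (fixedSetoid W (P : Subgroup G)),
      {β : IrrCharacter (X ⊓ inertia W ((rep q).1 : W → ℂ) : Subgroup G) //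
        IsRealOdd β}) → {χ : IrrCharacter G // IsRealOdd χ} :=
    fun z => ⟨h.ind _ z.2.1, (h.ind_real_iff _ z.2.1).2 z.2.2.1, by
      rw [h.charDegree_ind]
      exact (hodd _).mul z.2.2.2⟩
  refine (Nat.card_congr (Equiv.ofBijective F ⟨?_, ?_⟩)).symm
  · rintro ⟨q, β⟩ ⟨q', β'⟩ he
    have he' : h.ind _ β.1 = h.ind _ β'.1 := congrArg Subtype.val he
    have hq : q = q' := by
      rw [← hrep q, ← hrep q', Quotient.eq]
      have h1 := h.mult_ind _ β.1
      have h2 := h.mult_ind _ β'.1
      rw [← he'] at h2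
      obtain ⟨g, hg⟩ := mem_conjOrbit_of_mult_ne_zero _ _ _ h1 h2
      exact ⟨g, hg⟩
    subst hq
    rw [show β = β' from Subtype.ext (h.ind_injective _ he')]
  · rintro ⟨χ, hχ⟩
    obtain ⟨b, hb, hbP⟩ := IsSplit.exists_fixed (W := W) P hχ.2
    let q : Quotient (fixedSetoid W (P : Subgroup G)) := Quotient.mk _ ⟨b, hbP⟩
    obtain ⟨g, hg⟩ : ∃ g : G, conjIrr g b = (rep q).1 :=
      Quotient.exact (hrep q).symm
    have hbq : mult (fun w : W => (χ : G → ℂ) w) (rep q).1 ≠ 0 := by
      rw [← hg, mult_restrict_conjIrr (isClassFunction_coe χ)]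
      exact hb
    obtain ⟨β, rfl⟩ := h.exists_eq_ind _ χ hbq
    refine ⟨⟨q, β, (h.ind_real_iff _ β).1 hχ.1, ?_⟩, rfl⟩
    have h1 := hχ.2
    rw [h.charDegree_ind] at h1
    exact (Nat.odd_mul.1 h1).2

end count

end CfsgLib.Chars.RealOddSolvable
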